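import Mathlib
import Cfsg.Agent.Spor.J2.Main
import Cfsg.Agent.Rec.Pair
import Cfsg.Agent.Rec.Misc
import Cfsg.Agent.Rec.SylTools
import Cfsg.Agent.Rec.J23.J2Data
import Cfsg.Agent.S3074

/-!
The Sylow normalisers of the Hall–Janko group for the primes 3, 5 and 7.
-/

set_option autoImplicit false
set_option synthInstance.maxSize 100000
set_option synthInstance.maxHeartbeats 1000000
set_option exponentiation.threshold 1000

namespace Cfsg.Agent.Rec.J23

open Subgroup Cfsg.Agent.Spor Cfsg.Agent.Rec.Syl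

universe u

variable {G : Type u} [Group G] [Finite G]

namespace F2

/-- The codes for `GL₆(4)`. -/
noncomputable def C0 : Cod A MJ2.GL6 := pairCod MJ2.M (matSpec_lt _ _) A_ok

theorem exists_map {G₀ G' : Type*} [Group G₀] [Group G'] {A : Ar} {C : Cod A G₀} {c : List ℕ} {e₀ : List G₀}
    (h : C.RepL c e₀) {H : Subgroup G₀} (hH : ∀ x ∈ e₀, x ∈ H) (ψ : H →* G') (hψ : Function.Injective ψ) :
    ∃ e, (C.map H ψ hψ).RepL c e := by
  induction h with
  | nil => exact ⟨_, Cod.repL_nil⟩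
  | cons h _ ih =>
    obtain ⟨e, he⟩ := ih fun x hx => hH x (List.mem_cons_of_mem _ hx)
    exact ⟨_, (Cod.Rep.map ψ hψ h (hH _ List.mem_cons_self)).cons he⟩

omit [Finite G] in
theorem exists_rep (h : Cfsg.Spor.IsoJ2 G) : Nat.card G = 604800 ∧ ∃ (C : Cod A G) (e : List G), C.RepL cS e := by
  obtain ⟨φ⟩ := h
  refine ⟨(Nat.card_congr φ.toEquiv).trans MJ2.card_J2, _, exists_map (C := C0) (repL_pair _ _ A_ok cS_ok)
    (H := MJ2.B) (fun x hx => ?_) (φ.trans MJ2.eJ).symm.toMonoidHom (φ.trans MJ2.eJ).symm.injective⟩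
  obtain ⟨a, ha, rfl⟩ := List.mem_map.1 hx
  have h1 : ∀ a ∈ cS, ∃ i < 4, Nat.land a (2 ^ 540 - 1) = MJ2.sc i := by decide +kernel
  obtain ⟨i, hi, h2⟩ := h1 a ha
  have h3 : MJ2.M.elt (Nat.land a (2 ^ 540 - 1)) ∈ MJ2.B := by
    rw [h2]
    exact mem_genLt (MJ2.M.g MJ2.sc) hi
  exact h3

omit [Finite G] in
theorem exists_rep' (h : Cfsg.Spor.IsoJ2 G) {ws : List (List ℕ)} {c : List ℕ}
    (hc : beqL (ws.map (evC A cS)) c = true) : ∃ (C : Cod A G) (e : List G), C.RepL (cK ++ c) e :=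
  let ⟨_, C, _, he⟩ := exists_rep h
  ⟨C, _, List.rel_append (repL_words he wK_ok) (repL_words he hc)⟩

section

variable {C : Cod A G} {a0 a1 a2 q0 q1 q2 q3 : G}

omit [Finite G] in
theorem genA (h : C.RepL cK [a0, a1, a2, q0, q1, q2, q3]) :
    C.Lists A5_t.dom (clos [a0, a1, a2]) ∧ Nat.card (clos [a0, a1, a2]) = 60 := (h.pick [0, 1, 2]).gen A5_ok

omit [Finite G] in
theorem genQ (h : C.RepL cK [a0, a1, a2, q0, q1, q2, q3]) :
    C.Lists Q_t.dom (clos [q0, q1, q2, q3]) ∧ Nat.card (clos [q0, q1, q2, q3]) = 32 := (h.pick [3, 4, 5, 6]).gen Q_ok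

/-- The bound through the subgroup of index 315. -/
theorem bound (hG : Nat.card G = 604800) (h : C.RepL cK [a0, a1, a2, q0, q1, q2, q3]) {N T : Subgroup G}
    (H : ∀ q ∈ clos [q0, q1, q2, q3], ∀ a ∈ clos [a0, a1, a2], q * a ∈ N → q * a ∈ T) :
    Nat.card N ≤ 315 * Nat.card T := by
  have hL := (genA h).1.cons ((genQ h).1.cons Cod.listsL_nil)
  have h1 := card_le_of_prod (hL.decide h (by decide +kernel)) (hL.decide h (by decide +kernel)) H
  rw [(genA h).2, (genQ h).2, hG] at h1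
  omega

end

end F2

open F2

/-- The conclusion of S1722. -/
theorem j2_sylow_five (h : Cfsg.Spor.IsoJ2 G) (P : Sylow 5 G) :
    centralizer ((P : Subgroup G) : Set G) = P ∧ Nat.card P = 25 ∧
    Nat.card (normalizer ((P : Subgroup G) : Set G)) = 300 ∧
    ∃ X Y : Subgroup G, Nat.card X = 5 ∧ Nat.card Y = 5 ∧ (∀ g : G, X.map (MulAut.conj g).toMonoidHom ≠ Y) ∧
      ∀ W : Subgroup G, Nat.card W = 5 →
        ∃ g : G, W.map (MulAut.conj g).toMonoidHom = X ∨ W.map (MulAut.conj g).toMonoidHom = Y := by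
  have : Fact (Nat.Prime 5) := ⟨by norm_num⟩
  have hG := (exists_rep h).1
  obtain ⟨C₀, e₀, h₀⟩ := exists_rep' h w5_ok
  obtain ⟨C, e, he, hP⟩ := exists_rep_sylow P h₀ [7, 8] (k := 2) (m := 24192) ((h₀.pick [7, 8]).gen P5_ok).2 hG
    (by norm_num)
  have hl : e.length = 12 := he.length_eq.symm
  match e, hl, he, hP with
  | [a0, a1, a2, q0, q1, q2, q3, a, b, u, n1, n2], _, he, hP =>
  replace hP : clos [a, b] = P := hP
  have hK : C.RepL cK [a0, a1, a2, q0, q1, q2, q3] := he.pick [0, 1, 2, 3, 4, 5, 6]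
  obtain ⟨l1, c1⟩ : C.Lists P5_t.dom (clos [a, b]) ∧ Nat.card (clos [a, b]) = 25 := (he.pick [7, 8]).gen P5_ok
  obtain ⟨l2, c2⟩ : C.Lists X5_t.dom (clos [a]) ∧ Nat.card (clos [a]) = 5 := (he.pick [7]).gen X5_ok
  obtain ⟨l3, c3⟩ : C.Lists Y5_t.dom (clos [b]) ∧ Nat.card (clos [b]) = 5 := (he.pick [8]).gen Y5_ok
  obtain ⟨l4, c4⟩ : C.Lists T5_t.dom (clos [u]) ∧ Nat.card (clos [u]) = 2 := (he.pick [9]).gen T5_ok
  obtain ⟨l5, c5⟩ : C.Lists N5_t.dom (clos [n1, n2]) ∧ Nat.card (clos [n1, n2]) = 300 := (he.pick [10, 11]).gen N5_ok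
  have hL := (genA hK).1.cons <| (genQ hK).1.cons <| l1.cons <| l2.cons <| l3.cons <| l4.cons <| l5.cons Cod.listsL_nil
  have ha : a ∈ clos [a, b] := mem_clos (by simp)
  have hb : b ∈ clos [a, b] := mem_clos (by simp)
  have f1 : ∀ q ∈ clos [q0, q1, q2, q3], ∀ x ∈ clos [a0, a1, a2], Let (q * x) fun g =>
      g * a * g⁻¹ ∈ clos [a, b] → g * b * g⁻¹ ∈ clos [a, b] → g ∈ clos [u] := hL.decide he (by decide +kernel)
  have f2 : ∀ x ∈ clos [a, b], n1 * x * n1⁻¹ ∈ clos [a, b] ∧ n2 * x * n2⁻¹ ∈ clos [a, b] :=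
    hL.decide he (by decide +kernel)
  have f3 : ∀ g ∈ clos [n1, n2], a * g = g * a → b * g = g * b → g ∈ clos [a, b] := hL.decide he (by decide +kernel)
  have f4 : ∀ x ∈ clos [a, b], ∀ y ∈ clos [a, b], x * y = y * x := hL.decide he (by decide +kernel)
  have f5 : ∀ g ∈ clos [n1, n2], ¬ g⁻¹ * a * g ∈ clos [b] := hL.decide he (by decide +kernel)
  have f6 : ∀ w ∈ clos [a, b], ∃ g ∈ clos [n1, n2], Let (g * w * g⁻¹) fun v => v ∈ clos [a] ∨ v ∈ clos [b] :=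
    hL.decide he (by decide +kernel)
  have h1 := bound hG hK (N := normalizer (clos [a, b] : Set G)) fun q hq x hx hn =>
    f1 q hq x hx ((hn a).1 ha) ((hn b).1 hb)
  have h2 : clos [n1, n2] ≤ normalizer (clos [a, b] : Set G) := clos_le.2 (by
    simpa using ⟨mem_normalizer_fintype fun x hx => (f2 x hx).1, mem_normalizer_fintype fun x hx => (f2 x hx).2⟩)
  rw [c4, hP] at h1
  have hN := normalizer_eq P (hP ▸ h2) c5 hG (b := 3) (by omega) (by decide)
  have hc : IsMulCommutative (P : Subgroup G) := ⟨⟨fun x y => Subtype.ext (f4 x (hP.ge x.2) y (hP.ge y.2))⟩⟩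
  refine ⟨le_antisymm (fun g hg => ?_) (le_centralizer _), hP ▸ c1, hN ▸ c5, _, _, c2, c3, fun g hg => ?_,
    fun W hW => ?_⟩
  · exact hP ▸ f3 g (hN ▸ centralizer_le_normalizer _ hg) (hg a (hP ▸ ha)) (hg b (hP ▸ hb))
  · have h3 : g⁻¹⁻¹ * a * g⁻¹ ∈ clos [b] := hg ▸ ⟨a, mem_clos (by simp), by simp⟩
    obtain ⟨n, hn, h4⟩ := P.conj_eq_normalizer_conj_of_mem a g⁻¹ (hP.le ha)
      (hP.le ((clos_le.2 (by simpa using hb) : clos [b] ≤ clos [a, b]) h3))
    exact f5 n (hN ▸ hn) (h4 ▸ h3)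
  · obtain ⟨w, hw⟩ := exists_prime_orderOf_dvd_card' (G := W) 5 hW.symm.dvd
    obtain ⟨v, -, hv⟩ := NM.exists_conj_mem_of_index (le_top : clos [a, b] ≤ ⊤) (p := 5) (m := 24192) Fact.out
      (by rw [card_top, c1, hG]) (by norm_num) (x := w) trivial (k := 1)
      (by rw [pow_one, ← hw]; exact congrArg Subtype.val (pow_orderOf_eq_one w))
    obtain ⟨g, -, hg⟩ := f6 _ hv
    have h3 : (w : G) ≠ 1 := fun e => by simp [show w = 1 from Subtype.ext e] at hw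
    have h4 : g * v * w * (g * v)⁻¹ = g * (v * w * v⁻¹) * g⁻¹ := by group
    exact ⟨g * v, hg.imp (fun h5 => map_conj_eq hW c2 w.2 h3 (h4 ▸ h5)) fun h5 => map_conj_eq hW c3 w.2 h3 (h4 ▸ h5)⟩

/-- The conclusion of S1723. -/
theorem j2_sylow_three (h : Cfsg.Spor.IsoJ2 G) (P : Sylow 3 G) :
    Cfsg.IsExtraspecial 3 (P : Subgroup G) ∧ Nat.card P = 27 ∧
    Nat.card (normalizer ((P : Subgroup G) : Set G)) = 216 ∧
    ∃ a b : G, orderOf a = 3 ∧ orderOf b = 3 ∧ ¬ IsConj a b ∧ ∀ c : G, orderOf c = 3 → IsConj c a ∨ IsConj c b := by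
  have hG := (exists_rep h).1
  obtain ⟨C₀, e₀, h₀⟩ := exists_rep' h w3_ok
  obtain ⟨C, e, he, hP⟩ := exists_rep_sylow P h₀ [8, 9] (k := 3) (m := 22400) ((h₀.pick [8, 9]).gen P3_ok).2 hG
    (by norm_num)
  have hl : e.length = 13 := he.length_eq.symm
  match e, hl, he, hP with
  | [a0, a1, a2, q0, q1, q2, q3, a, b, c, n, f, g], _, he, hP =>
  replace hP : clos [b, c] = P := hP
  have hK : C.RepL cK [a0, a1, a2, q0, q1, q2, q3] := he.pick [0, 1, 2, 3, 4, 5, 6]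
  obtain ⟨l1, c1⟩ : C.Lists P3_t.dom (clos [b, c]) ∧ Nat.card (clos [b, c]) = 27 := (he.pick [8, 9]).gen P3_ok
  obtain ⟨l2, c2⟩ : C.Lists N3_t.dom (clos [n, b]) ∧ Nat.card (clos [n, b]) = 216 := (he.pick [10, 8]).gen N3_ok
  have c3 : Nat.card (clos [f]) = 4 := ((he.pick [11]).gen F4_ok).2
  have c4 : Nat.card (clos [g]) = 5 := ((he.pick [12]).gen F5_ok).2
  have hL := (genA hK).1.cons <| (genQ hK).1.cons <| l1.cons <| l2.cons Cod.listsL_nil
  have hb : b ∈ clos [b, c] := mem_clos (by simp)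
  have hc : c ∈ clos [b, c] := mem_clos (by simp)
  have f1 : ∀ q ∈ clos [q0, q1, q2, q3], ∀ x ∈ clos [a0, a1, a2], Let (q * x) fun g =>
      (g * b * g⁻¹ ∈ clos [b, c] → g * c * g⁻¹ ∈ clos [b, c] → g = 1) ∧ (g * b = b * g → g = 1) :=
    hL.decide he (by decide +kernel)
  have f2 : ∀ x ∈ clos [b, c], n * x * n⁻¹ ∈ clos [b, c] ∧ b * x * b⁻¹ ∈ clos [b, c] :=
    hL.decide he (by decide +kernel)
  have f3 : ¬ b * c = c * b ∧ orderOf a = 3 ∧ orderOf b = 3 ∧ b * a = a * b ∧ c * a = a * c ∧ f * a = a * f ∧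
      g * a = a * g := hL.decide he (by decide +kernel)
  have f4 : ∀ w ∈ clos [b, c], w = 1 ∨ ∃ g ∈ clos [n, b], Let (g * w * g⁻¹) fun v => v = a ∨ v = b :=
    hL.decide he (by decide +kernel)
  have h1 := bound hG hK (N := normalizer (clos [b, c] : Set G)) (T := ⊥) fun q hq x hx hn =>
    (f1 q hq x hx).1 ((hn b).1 hb) ((hn c).1 hc)
  have h2 : clos [n, b] ≤ normalizer (clos [b, c] : Set G) := clos_le.2 (by
    simpa using ⟨mem_normalizer_fintype fun x hx => (f2 x hx).1, mem_normalizer_fintype fun x hx => (f2 x hx).2⟩)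
  rw [card_bot, hP] at h1
  have hN := normalizer_eq P (hP ▸ h2) c2 hG (b := 2) (by omega) (by decide)
  refine ⟨S3074.isExtraspecial_of_card_cube (hP ▸ c1) fun h3 => f3.1 ?_, hP ▸ c1, hN ▸ c2, a, b, f3.2.1, f3.2.2.1,
    fun h3 => ?_, fun w hw => ?_⟩
  · exact congrArg Subtype.val (h3.is_comm.comm ⟨b, hP ▸ hb⟩ ⟨c, hP ▸ hc⟩)
  · have h4 := bound hG hK (N := centralizer {b}) (T := ⊥) fun q hq x hx hn =>
      (f1 q hq x hx).2 (mem_centralizer_singleton_iff.1 hn)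
    have h5 : ∀ xs : List G, (∀ x ∈ xs, x * a = a * x) → Nat.card (clos xs) ∣ Nat.card (centralizer ({a} : Set G)) :=
      fun xs hx => card_dvd_of_le (clos_le.2 fun x h => mem_centralizer_singleton_iff.2 (hx x h))
    have h6 := h5 [b, c] (by simpa using ⟨f3.2.2.2.1, f3.2.2.2.2.1⟩)
    have h7 := h5 [f] (by simpa using f3.2.2.2.2.2.1)
    have h8 := h5 [g] (by simpa using f3.2.2.2.2.2.2)
    have h9 : 0 < Nat.card (centralizer ({a} : Set G)) := Nat.card_pos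
    rw [card_bot, ← card_centralizer_conj h3] at h4
    rw [c1] at h6
    rw [c3] at h7
    rw [c4] at h8
    omega
  · obtain ⟨v, -, hv⟩ := NM.exists_conj_mem_of_index (le_top : clos [b, c] ≤ ⊤) (p := 3) (m := 22400) Fact.out
      (by rw [card_top, c1, hG]) (by norm_num) (x := w) trivial (k := 1) (by rw [pow_one, ← hw, pow_orderOf_eq_one])
    rcases f4 _ hv with h3 | ⟨u, -, hu⟩
    · rw [conj_eq_one_iff.1 h3] at hw
      simp at hw
    · have h4 : u * v * w * (u * v)⁻¹ = u * (v * w * v⁻¹) * u⁻¹ := by group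
      exact hu.imp (fun h5 => isConj_iff.2 ⟨_, h4.trans h5⟩) fun h5 => isConj_iff.2 ⟨_, h4.trans h5⟩

/-- The conclusion of S1724. -/
theorem j2_sylow_seven (h : Cfsg.Spor.IsoJ2 G) (D : Sylow 7 G) :
    centralizer ((D : Subgroup G) : Set G) = D ∧ Nat.card (normalizer ((D : Subgroup G) : Set G)) = 42 ∧
    ¬ IsMulCommutative (normalizer ((D : Subgroup G) : Set G)) := by
  have : Fact (Nat.Prime 7) := ⟨by norm_num⟩
  have hG := (exists_rep h).1
  obtain ⟨C₀, e₀, h₀⟩ := exists_rep' h w7_ok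
  obtain ⟨C, e, he, hP⟩ := exists_rep_sylow D h₀ [7] (k := 1) (m := 86400) ((h₀.pick [7]).gen D7_ok).2 hG
    (by norm_num)
  have hl : e.length = 9 := he.length_eq.symm
  match e, hl, he, hP with
  | [a0, a1, a2, q0, q1, q2, q3, y, n], _, he, hP =>
  replace hP : clos [y] = D := hP
  have hK : C.RepL cK [a0, a1, a2, q0, q1, q2, q3] := he.pick [0, 1, 2, 3, 4, 5, 6]
  have l1 : C.Lists D7_t.dom (clos [y]) := ((he.pick [7]).gen D7_ok).1
  obtain ⟨l2, c2⟩ : C.Lists N7_t.dom (clos [y, n]) ∧ Nat.card (clos [y, n]) = 42 := (he.pick [7, 8]).gen N7_ok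
  have hL := (genA hK).1.cons <| (genQ hK).1.cons <| l1.cons <| l2.cons Cod.listsL_nil
  have hy : y ∈ clos [y] := mem_clos (by simp)
  have f1 : ∀ q ∈ clos [q0, q1, q2, q3], ∀ x ∈ clos [a0, a1, a2], Let (q * x) fun g =>
      g * y * g⁻¹ ∈ clos [y] → g = 1 := hL.decide he (by decide +kernel)
  have f2 : ∀ x ∈ clos [y], y * x * y⁻¹ ∈ clos [y] ∧ n * x * n⁻¹ ∈ clos [y] := hL.decide he (by decide +kernel)
  have f3 : ∀ g ∈ clos [y, n], y * g = g * y → g ∈ clos [y] := hL.decide he (by decide +kernel)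
  have f4 : ∀ x ∈ clos [y], ∀ z ∈ clos [y], x * z = z * x := hL.decide he (by decide +kernel)
  have f5 : ¬ y * n = n * y := hL.decide he (by decide +kernel)
  have h1 := bound hG hK (N := normalizer (clos [y] : Set G)) (T := ⊥) fun q hq x hx hn =>
    f1 q hq x hx ((hn y).1 hy)
  have h2 : clos [y, n] ≤ normalizer (clos [y] : Set G) := clos_le.2 (by
    simpa using ⟨mem_normalizer_fintype fun x hx => (f2 x hx).1, mem_normalizer_fintype fun x hx => (f2 x hx).2⟩)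
  rw [card_bot, hP] at h1
  have hN := normalizer_eq D (hP ▸ h2) c2 hG (b := 8) (by omega) (by decide)
  refine ⟨le_antisymm (fun g hg => ?_) fun g hg x hx => f4 x (hP ▸ hx) g (hP ▸ hg), hN ▸ c2, fun h3 => f5 ?_⟩
  · exact hP ▸ f3 g (hN ▸ centralizer_le_normalizer _ hg) (hg y (hP ▸ hy))
  · exact congrArg Subtype.val (h3.is_comm.comm ⟨y, hN ▸ mem_clos (by simp)⟩ ⟨n, hN ▸ mem_clos (by simp)⟩)

end Cfsg.Agent.Rec.J23
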